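import Cfsg.Prelude.Def_Classical
import Cfsg.Agent.S2366
import Cfsg.Agent.S3335
import Mathlib.Algebra.QuadraticAlgebra.Basic
import Mathlib.FieldTheory.Finite.Basic

/-!
An alternating subgroup of degree 7 in `PSU₃(5)`: explicit matrices over `𝔽₅[√2]`.
-/

set_option autoImplicit false

namespace Cfsg.Agent.Lib.UThreeFive

open Matrix

/-- The field of order 25 as a quadratic algebra. -/
abbrev R25 := QuadraticAlgebra (ZMod 5) 2 0

/-- 3 × 3 matrices. -/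
abbrev M25 := Matrix (Fin 3) (Fin 3) R25

/-- The images of the Carmichael generators. -/
def gM : Fin 5 → M25 := ![
  !![⟨2, 0⟩, ⟨3, 0⟩, ⟨0, 4⟩; ⟨2, 0⟩, ⟨3, 0⟩, ⟨0, 1⟩; ⟨0, 4⟩, ⟨0, 4⟩, ⟨0, 0⟩],
  !![⟨4, 0⟩, ⟨0, 0⟩, ⟨0, 0⟩; ⟨0, 0⟩, ⟨4, 0⟩, ⟨0, 0⟩; ⟨0, 0⟩, ⟨0, 0⟩, ⟨1, 0⟩],
  !![⟨4, 0⟩, ⟨0, 0⟩, ⟨0, 0⟩; ⟨0, 0⟩, ⟨3, 0⟩, ⟨0, 2⟩; ⟨0, 0⟩, ⟨0, 3⟩, ⟨2, 0⟩],
  !![⟨2, 0⟩, ⟨0, 2⟩, ⟨0, 0⟩; ⟨0, 3⟩, ⟨3, 0⟩, ⟨0, 0⟩; ⟨0, 0⟩, ⟨0, 0⟩, ⟨4, 0⟩],
  !![⟨1, 0⟩, ⟨0, 0⟩, ⟨0, 0⟩; ⟨0, 0⟩, ⟨4, 0⟩, ⟨0, 0⟩; ⟨0, 0⟩, ⟨0, 0⟩, ⟨4, 0⟩]]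

/-- The scalar of a relation. -/
def scal (i j : Fin 5) : R25 := if i = 0 ∧ j = 3 then ⟨2, 3⟩ else 1

theorem gens_det : ∀ i, (gM i).det = 1 := by decide +kernel

theorem gens_unitary : ∀ i, gM i * ((gM i).map fun x => x ^ 5)ᵀ = 1 := by decide +kernel

theorem gens_cube : gM 0 * gM 0 * gM 0 = 1 := by decide +kernel

theorem gens_sq : ∀ i : Fin 5, 1 ≤ i.val → gM i * gM i = 1 := by decide +kernel

theorem gens_braid : ∀ i j : Fin 5, j.val = i.val + 1 →
    gM i * gM j * (gM i * gM j) * (gM i * gM j) = 1 := by decide +kernel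

theorem gens_comm : ∀ i j : Fin 5, i.val + 1 < j.val →
    gM i * gM j * (gM i * gM j) = scal i j • (1 : M25) := by decide +kernel

theorem gens_one : gM 1 0 0 ≠ gM 1 2 2 := by decide +kernel

theorem r25_inverse : ∀ u v : ZMod 5,
    ((⟨u, v⟩ : R25)) ≠ 0 → ∃ s t : ZMod 5, (⟨u, v⟩ : R25) * ⟨s, t⟩ = 1 := by decide +kernel

theorem r25_five : (5 : R25) = 0 := by decide +kernel

theorem exists_hom (F : Type*) [Field F] [Fintype F] (hF : Fintype.card F = 25) :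
    ∃ φ : R25 →+* F, Function.Injective φ := by
  haveI : Fact (Nat.Prime 5) := ⟨by norm_num⟩
  obtain ⟨p, hp⟩ := CharP.exists F
  haveI := hp
  obtain ⟨n, hpp, hn⟩ := FiniteField.card F p
  have hp5 : p = 5 := by
    rw [hF] at hn
    have h5 : (5 : ℕ) ∣ p ^ (n : ℕ) := hn ▸ (by norm_num)
    exact ((Nat.prime_dvd_prime_iff_eq (by norm_num) hpp).1
      ((by norm_num : Nat.Prime 5).dvd_of_dvd_pow h5)).symm
  subst hp5
  letI := ZMod.algebra F 5
  have h5 : (5 : F) = 0 := by exact_mod_cast CharP.cast_eq_zero F 5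
  have h2 : (2 : F) ≠ 0 := fun h => one_ne_zero (by linear_combination h5 - 2 * h : (1 : F) = 0)
  obtain ⟨w, hw⟩ : IsSquare (2 : F) := by
    rw [FiniteField.isSquare_iff (by rw [ringChar.eq F 5]; norm_num) h2, hF]
    norm_num
    linear_combination (819 : F) * h5
  let L : R25 →ₐ[ZMod 5] F := QuadraticAlgebra.lift ⟨w, by
    rw [← hw, zero_smul, add_zero, Algebra.smul_def, mul_one, map_ofNat]⟩
  refine ⟨L.toRingHom, ?_⟩
  intro a b h
  by_contra hab
  obtain ⟨y, hy⟩ : ∃ y, (a - b) * y = 1 := by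
    obtain ⟨s, t, hst⟩ := r25_inverse (a - b).re (a - b).im (sub_ne_zero.2 hab)
    exact ⟨_, hst⟩
  have h1 := congrArg L.toRingHom hy
  rw [map_mul, map_sub, h, sub_self, zero_mul, map_one] at h1
  exact zero_ne_one h1

theorem exists_alt {F : Type*} [Field F] [Fintype F] (hF : Fintype.card F = 25) :
    ∃ H : Subgroup (Cfsg.PSU 3 F 5), Nat.card H = 2520 := by
  classical
  obtain ⟨φ, hφ⟩ := exists_hom F hF
  have hF2 : Fintype.card F = 5 ^ 2 := by rw [hF]; norm_num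
  haveI : ExpChar F 5 := by
    obtain ⟨p, hp⟩ := CharP.exists F
    haveI := hp
    have h0 : (5 : F) = 0 := by
      have := congrArg φ r25_five
      rwa [map_ofNat, map_zero] at this
    have hd : p ∣ 5 := (CharP.cast_eq_zero_iff F p 5).1 (by exact_mod_cast h0)
    rcases (Nat.dvd_prime (by norm_num)).1 hd with rfl | rfl
    · exact absurd rfl (CharP.char_ne_one F 1)
    · exact ExpChar.prime (by norm_num)
  have hlift : ∀ i, ∀ u v, Cfsg.hermForm 3 F 5 ((φ.mapMatrix (gM i)) *ᵥ u) ((φ.mapMatrix (gM i)) *ᵥ v) =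
      Cfsg.hermForm 3 F 5 u v := by
    intro i u v
    set M := gM i with hMdef
    have hM : (φ.mapMatrix M) * ((φ.mapMatrix M).map fun x => x ^ 5)ᵀ = 1 := by
      have := congrArg φ.mapMatrix (gens_unitary i)
      rw [map_mul, map_one] at this
      rw [← this]
      congr 1
      ext a b
      simp [M]
    have hM' := mul_eq_one_comm.1 hM
    have hexp : ∀ a b, ∑ k, φ.mapMatrix M k a * (φ.mapMatrix M k b) ^ 5 = if a = b then 1 else 0 := by
      intro a b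
      have := congrFun (congrFun hM' b) a
      rw [Matrix.mul_apply, Matrix.one_apply] at this
      simp only [Matrix.transpose_apply, Matrix.map_apply] at this
      simp only [eq_comm (a := a), ← this]
      exact Finset.sum_congr rfl fun k _ => mul_comm _ _
    simp only [Cfsg.hermForm, Matrix.mulVec, dotProduct, Fin.sum_univ_three,
      add_pow_expChar, mul_pow]
    have e00 := hexp 0 0
    have e01 := hexp 0 1
    have e02 := hexp 0 2
    have e10 := hexp 1 0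
    have e11 := hexp 1 1
    have e12 := hexp 1 2
    have e20 := hexp 2 0
    have e21 := hexp 2 1
    have e22 := hexp 2 2
    simp [Fin.sum_univ_three] at e00 e01 e02 e10 e11 e12 e20 e21 e22
    simp only [RingHom.mapMatrix_apply, Matrix.map_apply]
    linear_combination (u 0 * v 0 ^ 5) * e00 + (u 0 * v 1 ^ 5) * e01 + (u 0 * v 2 ^ 5) * e02 +
      (u 1 * v 0 ^ 5) * e10 + (u 1 * v 1 ^ 5) * e11 + (u 1 * v 2 ^ 5) * e12 +
      (u 2 * v 0 ^ 5) * e20 + (u 2 * v 1 ^ 5) * e21 + (u 2 * v 2 ^ 5) * e22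
  let s : Fin 5 → Cfsg.SU 3 F 5 := fun i =>
    ⟨⟨φ.mapMatrix (gM i), by rw [← RingHom.map_det, gens_det i, map_one]⟩, hlift i⟩
  let m : Cfsg.SU 3 F 5 →* Matrix (Fin 3) (Fin 3) F :=
    { toFun := fun s => ((s : Matrix.SpecialLinearGroup (Fin 3) F) : Matrix (Fin 3) (Fin 3) F)
      map_one' := rfl
      map_mul' := fun _ _ => rfl }
  have hs : ∀ i, m (s i) = φ.mapMatrix (gM i) := fun i => rfl
  let pr := QuotientGroup.mk' (Subgroup.center (Cfsg.SU 3 F 5))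
  have hone : ∀ x : Cfsg.SU 3 F 5, ∀ c : R25, m x = φ.mapMatrix (c • (1 : M25)) → pr x = 1 := by
    intro x c hx
    refine (QuotientGroup.eq_one_iff x).2 ((Cfsg.Agent.S2366.mem_center_iff hF2 x).2 ⟨φ c, ?_⟩)
    show m x = _
    rw [hx]
    ext a b
    simp [RingHom.mapMatrix_apply, Matrix.one_apply, apply_ite φ]
  have hcube : pr (s 0) ^ 3 = 1 := by
    rw [← map_pow]
    refine hone _ 1 ?_
    rw [one_smul, map_pow, hs, ← map_pow, pow_succ, pow_two, gens_cube]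
  have hsq : ∀ i : Fin 5, 1 ≤ i.val → pr (s i) ^ 2 = 1 := fun i hi => by
    rw [← map_pow]
    refine hone _ 1 ?_
    rw [one_smul, map_pow, hs, ← map_pow, pow_two, gens_sq i hi]
  have hbr : ∀ i j : Fin 5, j.val = i.val + 1 → (pr (s i) * pr (s j)) ^ 3 = 1 := fun i j h => by
    rw [← map_mul, ← map_pow]
    refine hone _ 1 ?_
    rw [one_smul, map_pow, map_mul, hs, hs, ← map_mul, ← map_pow, pow_succ, pow_two, gens_braid i j h]
  have hcm : ∀ i j : Fin 5, i.val + 1 < j.val → (pr (s i) * pr (s j)) ^ 2 = 1 := fun i j h => by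
    rw [← map_mul, ← map_pow]
    refine hone _ (scal i j) ?_
    rw [map_pow, map_mul, hs, hs, ← map_mul, ← map_pow, pow_two, gens_comm i j h]
  set rels : Set (FreeGroup (Fin (7 - 2))) :=
    ({g : FreeGroup (Fin (7 - 2)) | ∃ i : Fin (7 - 2), i.val = 0 ∧ g = FreeGroup.of i ^ 3} ∪
       {g | ∃ i : Fin (7 - 2), 1 ≤ i.val ∧ g = FreeGroup.of i ^ 2} ∪
       {g | ∃ i j : Fin (7 - 2), j.val = i.val + 1 ∧ g = (FreeGroup.of i * FreeGroup.of j) ^ 3} ∪
       {g | ∃ i j : Fin (7 - 2), i.val + 1 < j.val ∧ g = (FreeGroup.of i * FreeGroup.of j) ^ 2}) with hrels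
  obtain ⟨e⟩ := Cfsg.Agent.S3335.result 7 (by norm_num)
  have hg : ∀ r ∈ rels, FreeGroup.lift (fun i : Fin (7 - 2) => pr (s i)) r = 1 := by
    rintro r (((⟨i, hi, rfl⟩ | ⟨i, hi, rfl⟩) | ⟨i, j, hij, rfl⟩) | ⟨i, j, hij, rfl⟩)
    · rw [map_pow, FreeGroup.lift_apply_of, show i = (0 : Fin 5) from Fin.ext hi]
      exact hcube
    · rw [map_pow, FreeGroup.lift_apply_of]
      exact hsq i hi
    · rw [map_pow, map_mul, FreeGroup.lift_apply_of, FreeGroup.lift_apply_of]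
      exact hbr i j hij
    · rw [map_pow, map_mul, FreeGroup.lift_apply_of, FreeGroup.lift_apply_of]
      exact hcm i j hij
  let f : alternatingGroup (Fin 7) →* Cfsg.PSU 3 F 5 :=
    (PresentedGroup.toGroup hg).comp e.symm.toMonoidHom
  haveI : IsSimpleGroup (alternatingGroup (Fin 7)) := alternatingGroup.isSimpleGroup (by simp)
  have hinj : Function.Injective f := by
    rw [← MonoidHom.ker_eq_bot_iff]
    rcases (f.normal_ker).eq_bot_or_eq_top with h | h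
    · exact h
    · exfalso
      have h1 : f (e (PresentedGroup.of (1 : Fin 5))) = 1 := MonoidHom.mem_ker.1 (h ▸ Subgroup.mem_top _)
      simp only [f, MonoidHom.comp_apply, MulEquiv.coe_toMonoidHom, MulEquiv.symm_apply_apply,
        PresentedGroup.toGroup.of] at h1
      obtain ⟨c, hc⟩ := (Cfsg.Agent.S2366.mem_center_iff hF2 _).1 ((QuotientGroup.eq_one_iff _).1 h1)
      have a1 := congrFun (congrFun hc 0) 0
      have a2 := congrFun (congrFun hc 2) 2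
      simp only [Matrix.smul_apply, Matrix.one_apply_eq, smul_eq_mul, mul_one] at a1 a2
      exact gens_one (hφ (a1.trans a2.symm))
  refine ⟨f.range, ?_⟩
  rw [← Nat.card_congr (MonoidHom.ofInjective hinj).toEquiv]
  have h7 := two_mul_nat_card_alternatingGroup (α := Fin 7)
  rw [Nat.card_perm, Nat.card_fin] at h7
  rw [show Nat.factorial 7 = 5040 from rfl] at h7
  omega

end Cfsg.Agent.Lib.UThreeFive
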